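import Cfsg.Agent.H960.HT.Her
import Cfsg.Agent.H138.HT.CompsFinal

/-! S3540: the row `CompsRow` from `H138/HT/CompsFinal`. -/

set_option autoImplicit false
set_option linter.unusedSectionVars false
set_option linter.unusedVariables false

namespace Cfsg.Agent.H960.HT

universe u

theorem compsRow : CompsRow.{u} := by
  intro p _ V _ _ _ G h _ hh h2 hG k hk L hinj hLG hq hcomm hperm htrans hE
  exact Cfsg.Agent.H138.HT.comps_false hh h2 hG k hk L hinj hLG hq hcomm hperm htrans hE

end Cfsg.Agent.H960.HT
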